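import Cfsg.Prelude.Def_LieTypeChar
import Cfsg.Agent.H165.RV.Defs
import Cfsg.Agent.TwoGenCore.Involution
import Cfsg.Agent.SmallSimple.SylowMaxInter
import Cfsg.Agent.StrongEmb.Strong
import Cfsg.Agent.KFacts.RgdLieCharP
import Cfsg.Agent.OddHalf.Small.RankOne
import Cfsg.Agent.EvenType.ChevTwoF4

/-!
# TEAM RV, row r1 for the groups of characteristic 2 type (helper544)

`noOddAut_of_charTwo` : let `S` be a finite nonabelian simple group of characteristic 2 type, `P` a Sylow `2`-subgroup; an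
automorphism `φ` of odd order which centralises `P` is trivial. Proof: `X = C_S(φ) ≥ P` contains `N_S(R)` for every
`2`-subgroup `1 ≠ R ≤ X` (choose `R` maximal with `N_S(R) ≰ X`; a Sylow `2`-subgroup of `N_X(R)` is one of `N = N_S(R)`, so
`O_2(N) ≤ X` and `[N, φ] ≤ C(O_2(N)) ≤ O_2(N)` is fixed by `φ`, so trivial). Hence `X` is strongly embedded if `X ≠ S`; a
normal 2-subgroup `Q` of `X` is regular on the cosets `≠ X` (Bender), `φ` commutes with it, so `φ` fixes all cosets.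

`noOddAut_lie_two` : groups of Lie type in characteristic 2.
-/

set_option autoImplicit false

namespace Cfsg.Agent.H544.RV

open Cfsg Subgroup Cfsg.Agent.H165.RV Cfsg.Agent.TwoGenCore.Involution

universe u

variable {S : Type u} [Group S]

/-- the fixed points of `φ` -/
def fixS (φ : MulAut S) : Subgroup S where
  carrier := {x | φ x = x}
  one_mem' := map_one φ
  mul_mem' {a b} ha hb := by
    show φ (a * b) = a * b
    rw [map_mul, show φ a = a from ha, show φ b = b from hb]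
  inv_mem' {a} ha := by
    show φ a⁻¹ = a⁻¹
    rw [map_inv, show φ a = a from ha]

theorem mem_fixS {φ : MulAut S} {x : S} : x ∈ fixS φ ↔ φ x = x := Iff.rfl

/-- `φ ^ k` on `n` with `φ n = m n`, `m` fixed -/
theorem pow_apply_left {φ : MulAut S} {m n : S} (hm : φ m = m) (h : φ n = m * n) (k : ℕ) : (φ ^ k) n = m ^ k * n := by
  induction k with
  | zero => simp
  | succ k ih =>
    rw [pow_succ', MulAut.mul_apply, ih, map_mul, map_pow, hm, h, pow_succ, mul_assoc]

theorem pow_apply_both {φ : MulAut S} {u x g : S} (hu : φ u = u) (hx : φ x = x) (h : φ g = u * g * x) (k : ℕ) :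
    (φ ^ k) g = u ^ k * g * x ^ k := by
  induction k with
  | zero => simp
  | succ k ih =>
    rw [pow_succ', MulAut.mul_apply, ih, map_mul, map_mul, map_pow, map_pow, hu, hx, h, pow_succ, pow_succ']
    group

/-- odd and 2-power -/
theorem eq_one_of_odd_pow {G : Type*} [Group G] {m : G} {k j : ℕ} (hk : Odd k) (h1 : m ^ k = 1) (h2 : m ^ 2 ^ j = 1) :
    m = 1 := by
  have h3 : Nat.Coprime k (2 ^ j) := Nat.Coprime.pow_right j (Nat.coprime_two_right.2 hk)
  have h4 := Nat.dvd_gcd (orderOf_dvd_of_pow_eq_one h1) (orderOf_dvd_of_pow_eq_one h2)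
  rw [h3] at h4
  exact orderOf_eq_one_iff.1 (Nat.dvd_one.1 h4)

/-- **The local step**: `N` is `φ`-invariant, of characteristic 2, and `O_2(N)` is centralised by `φ`. -/
theorem le_fixS_of_core {φ : MulAut S} (hφ : Odd (orderOf φ)) {N : Subgroup S} (hinv : ∀ n ∈ N, φ n ∈ N)
    (hN : IsOfCharacteristicTwo ↥N) (hO : ∀ x : ↥N, x ∈ pCore 2 ↥N → φ (x : S) = x) : N ≤ fixS φ := by
  intro n hn
  obtain ⟨m, hm⟩ : ∃ m : ↥N, (m : S) = φ n * n⁻¹ := ⟨⟨φ n * n⁻¹, N.mul_mem (hinv n hn) (N.inv_mem hn)⟩, rfl⟩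
  have hnorm : (pCore 2 ↥N).Normal := Cfsg.Agent.Lib.Cores.pCore_normal 2
  have hmC : m ∈ Subgroup.centralizer (pCore 2 ↥N : Set ↥N) := by
    rw [Subgroup.mem_centralizer_iff]
    intro x hx
    apply Subtype.ext
    rw [Subgroup.coe_mul, Subgroup.coe_mul, hm]
    have h1 : (⟨n, hn⟩ : ↥N)⁻¹ * x * (⟨n, hn⟩ : ↥N)⁻¹⁻¹ ∈ pCore 2 ↥N := hnorm.conj_mem x hx _
    have h2 := hO _ h1
    have h3 : φ (n⁻¹ * (x : S) * n) = n⁻¹ * (x : S) * n := by
      have : (((⟨n, hn⟩ : ↥N)⁻¹ * x * (⟨n, hn⟩ : ↥N)⁻¹⁻¹ : ↥N) : S) = n⁻¹ * (x : S) * n := by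
        rw [Subgroup.coe_mul, Subgroup.coe_mul, Subgroup.coe_inv, inv_inv]
      rwa [this] at h2
    rw [map_mul, map_mul, map_inv, hO x hx] at h3
    calc (x : S) * (φ n * n⁻¹) = φ n * ((φ n)⁻¹ * (x : S) * φ n) * n⁻¹ := by group
      _ = φ n * (n⁻¹ * (x : S) * n) * n⁻¹ := by rw [h3]
      _ = φ n * n⁻¹ * (x : S) := by group
  have hmO := hN hmC
  have hφm := hO m hmO
  have h1 : φ n = (m : S) * n := by rw [hm, inv_mul_cancel_right]
  have h2 := pow_apply_left hφm h1 (orderOf φ)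
  rw [pow_orderOf_eq_one, MulAut.one_apply] at h2
  have h3 : (m : S) ^ orderOf φ = 1 := (mul_eq_right.1 h2.symm)
  obtain ⟨j, hj⟩ := (Cfsg.Agent.Lib.Cores.pCore_isPGroup (G := ↥N) 2) ⟨m, hmO⟩
  have h4 : (m : S) ^ 2 ^ j = 1 := by
    have h5 := congrArg (fun y : ↥(pCore 2 ↥N) => ((y : ↥N) : S)) hj
    simpa using h5
  have h5 := eq_one_of_odd_pow hφ h3 h4
  show φ n = n
  rw [h1, h5, one_mul]

variable [Finite S]

/-- A `2`-subgroup of `X ≥ P` lies in a Sylow `2`-subgroup of `S` contained in `X`. -/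
theorem exists_sylow_le {X : Subgroup S} (P : Sylow 2 S) (hP : (P : Subgroup S) ≤ X) {R : Subgroup S} (hR : IsPGroup 2 R)
    (hRX : R ≤ X) : ∃ Q : Sylow 2 S, R ≤ Q ∧ (Q : Subgroup S) ≤ X := by
  have : Fact (Nat.Prime 2) := ⟨Nat.prime_two⟩
  obtain ⟨T, hT⟩ := (hR.comap_of_injective X.subtype X.subtype_injective).exists_le_sylow
  have h1 : IsPGroup 2 ((T : Subgroup ↥X).map X.subtype : Subgroup S) := T.isPGroup'.map _
  have h2 : ¬ 2 ∣ ((T : Subgroup ↥X).map X.subtype : Subgroup S).index := by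
    rw [index_map_subtype]
    intro hd
    rcases (Nat.prime_two.dvd_mul).1 hd with hd | hd
    · exact T.not_dvd_index hd
    · exact P.not_dvd_index (hd.trans (index_dvd_of_le hP))
  refine ⟨h1.toSylow h2, ?_, map_subtype_le _⟩
  intro r hr
  exact ⟨⟨r, hRX hr⟩, hT (show X.subtype ⟨r, hRX hr⟩ ∈ R from hr), rfl⟩

/-- **The fixed points of `φ` contain the normalizers of their 2-subgroups.** -/
theorem normalizer_le (h2 : IsCharacteristicTwoType S) {φ : MulAut S} (hφ : Odd (orderOf φ)) (P : Sylow 2 S)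
    (hP : (P : Subgroup S) ≤ fixS φ) {R : Subgroup S} (hR : IsPGroup 2 R) (hRX : R ≤ fixS φ) (hR1 : R ≠ ⊥) :
    normalizer (R : Set S) ≤ fixS φ := by
  have : Fact (Nat.Prime 2) := ⟨Nat.prime_two⟩
  by_contra hcon
  obtain ⟨M, hRM, hM⟩ := Finite.exists_le_maximal
    (p := fun T : Subgroup S => T ≤ fixS φ ∧ IsPGroup 2 T ∧ T ≠ ⊥ ∧ ¬ normalizer (T : Set S) ≤ fixS φ) (a := R)
    ⟨hRX, hR, hR1, hcon⟩
  obtain ⟨⟨hMX, hMp, hM1, hMn⟩, hmax⟩ := hM
  have hmax' : ∀ T : Subgroup S, T ≤ fixS φ → IsPGroup 2 T → M < T → normalizer (T : Set S) ≤ fixS φ := by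
    intro T hTX hTp hMT
    by_contra hc
    have h3 := hmax ⟨hTX, hTp, fun h => hM1 (eq_bot_iff.2 (h ▸ hMT.le)), hc⟩ hMT.le
    exact hMT.not_ge h3
  apply hMn
  -- a maximal `2`-subgroup of `N ∩ X`
  obtain ⟨T, hMT, hTK, hTp, hTmax⟩ := exists_max (p := 2) (K := normalizer (M : Set S) ⊓ fixS φ) (X := M)
    (le_inf le_normalizer hMX) hMp
  have hTX : T ≤ fixS φ := hTK.trans inf_le_right
  have hTN : T ≤ normalizer (M : Set S) := hTK.trans inf_le_left
  -- it is a maximal `2`-subgroup of `N`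
  have hTN' : ∀ Q : Subgroup S, IsPGroup 2 Q → T ≤ Q → Q ≤ normalizer (M : Set S) → Q = T := by
    intro Q hQ hTQ hQN
    by_contra hne
    have hlt : T < Q := lt_of_le_of_ne hTQ (fun h => hne h.symm)
    rcases eq_or_lt_of_le hMT with hMT' | hMT'
    · -- `T = M`
      obtain ⟨P', hP'1, hP'2⟩ := exists_sylow_le P hP hMp hMX
      by_cases hMP : M = (P' : Subgroup S)
      · have h3 : (Q : Subgroup S) = P' := P'.is_maximal' hQ (by rw [← hMP, hMT']; exact hTQ)
        rw [← hMT', hMP, h3] at hlt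
        exact lt_irrefl _ hlt
      · have h3 := Cfsg.Agent.SmallSimple.SylowMaxInter.lt_inf_normalizer P'.isPGroup' (lt_of_le_of_ne hP'1 hMP)
        have h4 := hTmax (P' ⊓ normalizer (M : Set S)) (P'.isPGroup'.to_le inf_le_left) (hMT' ▸ h3.le)
          (le_inf inf_le_right (inf_le_left.trans hP'2))
        rw [← hMT'] at h4
        exact h3.ne h4.symm
    · have h3 := Cfsg.Agent.SmallSimple.SylowMaxInter.lt_inf_normalizer hQ hlt
      have h4 := hTmax (Q ⊓ normalizer (T : Set S)) (hQ.to_le inf_le_left) h3.le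
        (le_inf (inf_le_left.trans hQN) (inf_le_right.trans (hmax' T hTX hTp hMT')))
      exact h3.ne h4.symm
  refine le_fixS_of_core hφ ?_ (h2.2 M hMp hM1) ?_
  · intro n hn
    rw [mem_normalizer_iff] at hn ⊢
    intro x
    constructor
    · intro hx
      have h3 := (hn x).1 hx
      have h4 : φ (n * x * n⁻¹) = n * x * n⁻¹ := hMX h3
      rw [map_mul, map_mul, map_inv, show φ x = x from hMX hx] at h4
      rw [h4]
      exact h3
    · intro hx
      -- `φ n x (φ n)⁻¹ ∈ M`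
      have h3 : ∀ y ∈ M, φ n * y * (φ n)⁻¹ ∈ M := by
        intro y hy
        have h4 := (hn y).1 hy
        have h5 : φ (n * y * n⁻¹) = n * y * n⁻¹ := hMX h4
        rw [map_mul, map_mul, map_inv, show φ y = y from hMX hy] at h5
        rw [h5]
        exact h4
      obtain ⟨y, hy⟩ : ∃ y : ↥M, φ n * (y : S) * (φ n)⁻¹ = φ n * x * (φ n)⁻¹ := by
        have hinj : Function.Injective (fun y : ↥M => (⟨φ n * (y : S) * (φ n)⁻¹, h3 y y.2⟩ : ↥M)) := by
          intro a b hab
          have := congrArg Subtype.val hab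
          exact Subtype.ext (mul_left_cancel (mul_right_cancel this))
        obtain ⟨y, hy⟩ := (Finite.injective_iff_surjective.1 hinj) ⟨φ n * x * (φ n)⁻¹, hx⟩
        exact ⟨y, congrArg Subtype.val hy⟩
      have h4 : (y : S) = x := mul_left_cancel (mul_right_cancel hy)
      rw [← h4]
      exact y.2
  · intro x hx
    have h3 : IsPGroup 2 (((pCore 2 ↥(normalizer (M : Set S))).map (normalizer (M : Set S)).subtype) ⊔ T : Subgroup S) := by
      refine IsPGroup.to_sup_of_normal_left' ((Cfsg.Agent.Lib.Cores.pCore_isPGroup (G := ↥(normalizer (M : Set S))) 2).map _)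
        hTp ?_
      intro t ht
      rw [mem_normalizer_iff]
      have hnorm : (pCore 2 ↥(normalizer (M : Set S))).Normal := Cfsg.Agent.Lib.Cores.pCore_normal 2
      intro y
      constructor
      · rintro ⟨y, hy, rfl⟩
        exact ⟨_, hnorm.conj_mem y hy ⟨t, hTN ht⟩, rfl⟩
      · rintro ⟨z, hz, he⟩
        refine ⟨_, hnorm.conj_mem z hz (⟨t, hTN ht⟩ : ↥(normalizer (M : Set S)))⁻¹, ?_⟩
        have he' : (z : S) = t * y * t⁻¹ := he
        show t⁻¹ * (z : S) * t⁻¹⁻¹ = y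
        rw [he']
        group
    have h4 := hTN' _ h3 le_sup_right (sup_le (map_subtype_le _) hTN)
    have h5 : (x : S) ∈ T := by
      rw [← h4]
      exact mem_sup_left ⟨x, hx, rfl⟩
    exact hTX h5

/-- **An automorphism of odd order of a simple group of characteristic 2 type centralising a Sylow `2`-subgroup is
trivial.** -/
theorem noOddAut_of_charTwo [IsSimpleGroup S] (hna : ∃ a b : S, a * b ≠ b * a) (h2 : IsCharacteristicTwoType S) :
    NoOddAut S := by
  intro P φ hφ hP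
  have : Fact (Nat.Prime 2) := ⟨Nat.prime_two⟩
  have hPX : (P : Subgroup S) ≤ fixS φ := fun x hx => hP x hx
  have hN : ∀ R : Subgroup S, IsPGroup 2 R → R ≤ fixS φ → R ≠ ⊥ → normalizer (R : Set S) ≤ fixS φ := fun R h3 h4 h5 =>
    normalizer_le h2 hφ P hPX h3 h4 h5
  by_cases htop : fixS φ = ⊤
  · ext x
    have : x ∈ fixS φ := by rw [htop]; trivial
    exact this
  exfalso
  -- `X` is strongly embedded
  have heven : Even (Nat.card ↥(fixS φ)) := by
    rw [even_iff_two_dvd]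
    have h3 : 2 ∣ Nat.card ↥(P : Subgroup S) := by
      rw [P.card_eq_multiplicity]
      exact dvd_pow_self 2 (Nat.prime_two.factorization_pos_of_dvd Nat.card_pos.ne' (even_iff_two_dvd.1 h2.1)).ne'
    exact h3.trans (card_dvd_of_le hPX)
  have hclosed : Closed (fixS φ) := by
    intro R hRX hR hr
    refine hN R hR hRX ?_
    rintro rfl
    apply hr
    intro E _ _
    have h3 : Nat.card ↥E ≤ Nat.card ↥(⊥ : Subgroup S) := card_le_card_group E
    rw [card_bot] at h3
    exact h3.trans (by norm_num)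
  have hse : IsStronglyEmbedded (fixS φ) := by
    refine hclosed.isStronglyEmbedded htop heven fun t ht ht2 => ?_
    refine le_trans ?_ (hN (zpowers t) (IsPGroup.of_card (n := 1) (by rw [Nat.card_zpowers, ht2, pow_one]))
      (zpowers_le.2 ht) (by
        rw [Ne, zpowers_eq_bot]
        rintro rfl
        rw [orderOf_one] at ht2
        exact absurd ht2 (by norm_num)))
    refine le_trans ?_ (Subgroup.centralizer_le_normalizer _)
    intro c hc
    rw [mem_centralizer_iff]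
    rintro _ ⟨k, rfl⟩
    exact ((show Commute c t from mem_centralizer_singleton_iff.1 hc).zpow_right k).eq.symm
  obtain ⟨Q, hQ, hQp⟩ := Cfsg.Agent.StrongEmb.Strong.exists_isSplit hna (fixS φ) hse
  -- `φ` fixes all cosets
  have key : ∀ g : S, g⁻¹ * φ g ∈ fixS φ := by
    intro g
    by_cases hg : g ∈ fixS φ
    · rw [show φ g = g from hg, inv_mul_cancel]
      exact one_mem _
    have hg' : φ g ∉ fixS φ := by
      intro h3
      apply hg
      exact φ.injective h3
    obtain ⟨u, hu, hx⟩ := hQ.trans g (φ g) hg hg'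
    obtain ⟨x, hxe⟩ : ∃ x, x = ((φ g)⁻¹ * (u * g))⁻¹ := ⟨_, rfl⟩
    have hxX : x ∈ fixS φ := by rw [hxe]; exact inv_mem hx
    have hgx : φ g = u * g * x := by rw [hxe]; group
    have huX : φ u = u := hQ.le hu
    have h3 := pow_apply_both huX hxX hgx (orderOf φ)
    rw [pow_orderOf_eq_one, MulAut.one_apply] at h3
    have h4 : u ^ orderOf φ = 1 := by
      refine hQ.reg g hg _ (pow_mem hu _) ?_
      have h5 : g⁻¹ * (u ^ orderOf φ * g) = (x ^ orderOf φ)⁻¹ := by
        rw [eq_inv_iff_mul_eq_one]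
        calc g⁻¹ * (u ^ orderOf φ * g) * x ^ orderOf φ = g⁻¹ * (u ^ orderOf φ * g * x ^ orderOf φ) := by group
          _ = 1 := by rw [← h3, inv_mul_cancel]
      rw [h5]
      exact inv_mem (pow_mem hxX _)
    obtain ⟨j, hj⟩ := hQp ⟨u, hu⟩
    have h5 := eq_one_of_odd_pow hφ h4 (congrArg Subtype.val hj)
    rw [hgx, h5, one_mul, inv_mul_cancel_left]
    exact hxX
  have hcore : (fixS φ).normalCore = ⊥ := by
    rcases (inferInstance : (fixS φ).normalCore.Normal).eq_bot_or_eq_top with h3 | h3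
    · exact h3
    · exact absurd (eq_top_iff.2 (h3 ▸ normalCore_le _)) htop
  apply htop
  rw [eq_top_iff]
  intro h _
  have h3 : h⁻¹ * φ h ∈ (fixS φ).normalCore := by
    intro g
    -- `g (h⁻¹ φ h) g⁻¹ ∈ X`
    have h4 := key (h * g⁻¹)
    have h5 := key g⁻¹
    have h6 : g * (h⁻¹ * φ h) * g⁻¹ = (h * g⁻¹)⁻¹ * φ (h * g⁻¹) * (g⁻¹⁻¹ * φ g⁻¹)⁻¹ := by
      rw [map_mul]
      group
    rw [h6]
    exact mul_mem h4 (inv_mem h5)
  rw [hcore, mem_bot, inv_mul_eq_one] at h3
  exact h3.symm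

/-- **Groups of Lie type in characteristic 2.** -/
theorem charTwo_of_lie [IsSimpleGroup S] (hna : ∃ a b : S, a * b ≠ b * a) (h : IsLieTypeChar 2 S) :
    IsCharacteristicTwoType S := by
  have : Fact (Nat.Prime 2) := ⟨Nat.prime_two⟩
  rcases h with h | h | h | h | h | h | h | h | h | h | h
  · exact (KFacts.RgdLieCharP.hasFilt_of_lie (Or.inl h)).charTwo hna
  · exact (KFacts.RgdLieCharP.hasFilt_of_lie (Or.inr (Or.inl h))).charTwo hna
  · exact (KFacts.RgdLieCharP.hasFilt_of_lie (Or.inr (Or.inr (Or.inl h)))).charTwo hna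
  · exact (KFacts.RgdLieCharP.hasFilt_of_lie (Or.inr (Or.inr (Or.inr (Or.inl h))))).charTwo hna
  · exact (KFacts.RgdLieCharP.hasFilt_of_lie (Or.inr (Or.inr (Or.inr (Or.inr (Or.inl h)))))).charTwo hna
  · exact (KFacts.RgdLieCharP.hasFilt_of_lie (Or.inr (Or.inr (Or.inr (Or.inr (Or.inr (Or.inl h))))))).charTwo hna
  · exact (KFacts.RgdLieCharP.hasFilt_of_lie
      (Or.inr (Or.inr (Or.inr (Or.inr (Or.inr (Or.inr (Or.inl h)))))))).charTwo hna
  · exact (KFacts.RgdLieCharP.hasFilt_of_lie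
      (Or.inr (Or.inr (Or.inr (Or.inr (Or.inr (Or.inr (Or.inr h)))))))).charTwo hna
  · exact Cfsg.Agent.OddHalf.Small.RankOne.sz h.2
  · exact Cfsg.Agent.EvenType.ChevTwoF4.charTwo h.2
  · exact absurd h.1 (by norm_num)

/-- **TEAM RV, r1, characteristic 2.** -/
theorem noOddAut_lie_two [IsSimpleGroup S] (hna : ¬ IsMulCommutative S) (h : IsLieTypeChar 2 S) : NoOddAut S := by
  have hna' : ∃ a b : S, a * b ≠ b * a := by
    by_contra hc
    push Not at hc
    exact hna ⟨⟨hc⟩⟩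
  exact noOddAut_of_charTwo hna' (charTwo_of_lie hna' h)

end Cfsg.Agent.H544.RV
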